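import Cfsg.Agent.N2.Tool
import Cfsg.Agent.SM.Sp.Rows
import Cfsg.Agent.N2.SpK.Defs

/-!
# N2 (S3519), sporadic groups: the linear programs on the rational character table (helper16)

`A` is not good.  An element `a` of `A` has more than `index ^ (1/3)` fixed points, so that the elements of its type
are dense in `A`.  The sums of the characters on `A` are not negative.
-/

set_option autoImplicit false
set_option linter.unusedSectionVars false

namespace Cfsg.Agent.N2.Sp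

open Cfsg Cfsg.Agent.FP3 Cfsg.Agent.TAB.Eng Cfsg.Agent.TAB.Use Cfsg.Agent.SB.SporL Cfsg.Agent.TH.Spor Finset
open Cfsg.Agent.SM.Sp (val okMd md_lt)

variable {K : Type} [Group K] [Finite K] {D : Dat} {T : TD K D} {R : Rows}

/-- the density of the types: `ν t` is the number of elements for a rational class, `N / c` if `c` bounds the
centralisers -/
def Den (T : TD K D) (ν : List ℕ) : Prop :=
  ∀ (A : Subgroup K) (g : K), fx A g * Nat.card A * ntd ν 0 (T.ty g) ≤ D.N * num T A (T.ty g)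

theorem fx_card (A : Subgroup K) (h : K) : fx A h * Nat.card A = Nat.card {g : K // g⁻¹ * h * g ∈ A} := by
  have h1 := card_pre A fun x => h • x = x
  exact h1.symm.trans (Nat.card_congr (Equiv.subtypeEquivRight fun t => smul_mk_iff A h t))

/-- double counting -/
theorem sum_fx (A : Subgroup K) (t : ℕ) [Fintype {h : K // T.ty h = t}] :
    ∑ h : {h : K // T.ty h = t}, fx A h * Nat.card A = Nat.card K * num T A t := by
  simp only [fx_card]
  rw [← Nat.card_sigma, num, ← Nat.card_prod]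
  refine Nat.card_congr ⟨fun q => (q.2.1, ⟨⟨_, q.2.2⟩, ?_⟩), fun q => ⟨⟨q.1 * q.2.1 * q.1⁻¹, (T.conj _ _).trans q.2.2⟩,
    ⟨q.1, ?_⟩⟩, ?_, ?_⟩
  · have h3 := T.conj q.1.1 q.2.1⁻¹
    rw [inv_inv] at h3
    exact h3.trans q.1.2
  · have : q.1⁻¹ * (q.1 * q.2.1 * q.1⁻¹) * q.1 = q.2.1 := by group
    show q.1⁻¹ * (q.1 * q.2.1 * q.1⁻¹) * q.1 ∈ A
    rw [this]
    exact q.2.1.2
  · rintro ⟨⟨h, hh⟩, ⟨g, hg⟩⟩
    have e : g * (g⁻¹ * h * g) * g⁻¹ = h := by group
    refine Sigma.ext (Subtype.ext e) ?_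
    exact (Subtype.heq_iff_coe_eq fun x => by simp only [e]).2 rfl
  · rintro ⟨g, ⟨s, hs⟩⟩
    refine Prod.ext rfl (Subtype.ext (Subtype.ext ?_))
    show g⁻¹ * (g * s * g⁻¹) * g = s
    group

theorem fx_conj (A : Subgroup K) {x y : K} (h : IsConj x y) : fx A x = fx A y := by
  obtain ⟨c, rfl⟩ := isConj_iff.1 h
  refine Nat.eq_of_mul_eq_mul_right (Nat.card_pos (α := A)) ?_
  rw [fx_card, fx_card]
  refine Nat.card_congr (Equiv.subtypeEquiv (Equiv.mulLeft c) fun g => ?_)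
  have : (c * g)⁻¹ * (c * x * c⁻¹) * (c * g) = g⁻¹ * x * g := by group
  rw [Equiv.coe_mulLeft, this]

theorem cc_le_num (A : Subgroup K) (g : K) : cc A g ≤ num T A (T.ty g) :=
  Nat.card_le_card_of_injective (fun x => ⟨⟨x.1, x.2.2⟩, by
    obtain ⟨c, hc⟩ := isConj_iff.1 x.2.1
    exact hc ▸ T.conj g c⟩) fun _ _ h => Subtype.ext (congrArg (fun z => ((z.1 : A) : K)) h)

/-- the check of the densities; `cb` bounds the centralisers for the types in `L` -/
noncomputable def okNu (D : Dat) (L cb ν : List ℕ) : Bool :=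
  allL (fun t => cond (L.any (Nat.beq t)) (Nat.ble (ntd ν 0 t * cb.getD t 0) D.N) (Nat.ble (ntd ν 0 t) (D.cnt t)))
    (List.range D.n)

theorem den_of (hm : T.Mass) {L cb ν : List ℕ}
    (hk : ∀ x y, T.ty x = T.ty y → T.ty x ∉ L → ∃ k : ℕ, IsConj (x ^ k) y)
    (hc : ∀ x, T.ty x ∈ L → cn x ≤ cb.getD (T.ty x) 0) (h : okNu D L cb ν = true) : Den T ν := by
  intro A g
  have h1 := allL_spec h _ (List.mem_range.2 (T.lt g))
  cases h2 : L.any (Nat.beq (T.ty g)) with
  | true =>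
    rw [h2, cond_true, Nat.ble_eq] at h1
    obtain ⟨u, h3, h4⟩ := List.any_eq_true.1 h2
    have h5 := hc g (Nat.eq_of_beq_eq_true h4 ▸ h3)
    rw [fx_mul]
    calc cn g * cc A g * ntd ν 0 (T.ty g) ≤ cb.getD (T.ty g) 0 * num T A (T.ty g) * ntd ν 0 (T.ty g) :=
          Nat.mul_le_mul_right _ (Nat.mul_le_mul h5 (cc_le_num A g))
      _ = ntd ν 0 (T.ty g) * cb.getD (T.ty g) 0 * num T A (T.ty g) := by ring
      _ ≤ _ := Nat.mul_le_mul_right _ h1
  | false =>
    rw [h2, cond_false, Nat.ble_eq] at h1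
    have h3 : T.ty g ∉ L := fun h3 => by
      rw [List.any_eq_true.2 ⟨_, h3, Nat.beq_refl _⟩] at h2
      cases h2
    have := Fintype.ofFinite {h : K // T.ty h = T.ty g}
    rw [← hm.1, ← sum_fx, mul_comm]
    refine (Nat.mul_le_mul_right _ h1).trans ?_
    rw [← hm.2 _ (T.lt g), Nat.card_eq_fintype_card, ← smul_eq_mul]
    refine Finset.card_nsmul_le_sum _ _ _ fun y _ => Nat.mul_le_mul_right _ ?_
    obtain ⟨k, hk⟩ := hk g y y.2.symm h3
    exact fx_conj A hk ▸ fx_le_pow A g k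

/-- the check of the densities against the multipliers -/
noncomputable def okK (D : Dat) (L : List (ℕ × ℕ)) (ν : List ℕ) : Bool :=
  allL (fun t => frc (SpK.mu L t) fun m => cond (Nat.blt 0 m) (Nat.ble (Nat.mul (ntd ν 0 t) m) (D.cnt t)) false)
    (List.range D.n)

theorem den_of_kap (hm : T.Mass) {L : List (ℕ × ℕ)} (hk : SpK.Kap T L) {ν : List ℕ} (h : okK D L ν = true) :
    Den T ν := by
  intro A g
  have h1 := allL_spec h _ (List.mem_range.2 (T.lt g))
  rw [frc_eq] at h1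
  obtain ⟨h2, h3⟩ := SM.Sp.cond_ff h1
  rw [Nat.blt_eq] at h2
  rw [Nat.ble_eq, Nat.mul_eq] at h3
  refine Nat.le_of_mul_le_mul_left ?_ h2
  have h4 := Nat.mul_le_mul_right (Nat.card A) (hk.fx A g)
  have h5 := Nat.mul_le_mul_right (fx A g * Nat.card A) h3
  rw [← hm.1, ← A.index_mul_card, num]
  nlinarith [h4, h5]

/-- the rows which are sums of characters -/
noncomputable def rowsP (R : Rows) : List (List ℤ) :=
  frc R.n fun n => mapL (fun r => cond (allL (fun p => decide (p.1 < n) && decide (0 ≤ p.2)) r.1) r.2 []) R.rel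

theorem pos_rowsP (h : Tab T R) : ∀ r ∈ rowsP R, PosF T (nth r) := by
  intro r hr
  rw [rowsP, frc_eq, mapL_eq] at hr
  obtain ⟨q, hq, rfl⟩ := List.mem_map.1 hr
  cases h1 : allL (fun p : ℕ × ℤ => decide (p.1 < R.n) && decide (0 ≤ p.2)) q.1 with
  | false => exact fun S => (Finset.sum_eq_zero fun t _ => mul_zero _).ge
  | true =>
    obtain ⟨χ, hE, hR⟩ := h
    refine pos_of_tab (R := ⟨R.deg, [q]⟩) ⟨χ, hE, fun r hr => hR r (List.mem_singleton.1 hr ▸ hq)⟩ ?_ _
      List.mem_cons_self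
    show cond (allL (fun p : ℕ × ℤ => decide (p.1 < R.n) && decide (0 ≤ p.2)) q.1) true false = true
    rw [h1]
    rfl

/-- **what the engine needs from a table** -/
structure Hy (T : TD K D) (R : Rows) (ν : List ℕ) : Prop where
  mass : T.Mass
  tab : Tab T R
  zero : ∀ g, T.ty g = 0 ↔ g = 1
  den : Den T ν

/-- only the type `0` has order one -/
noncomputable def okZ (D : Dat) : Bool := allL (fun t => Nat.beq (D.ord t) 1 == Nat.beq t 0) (List.range D.n)

omit [Finite K] in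
theorem zero_of (h : okZ D = true) (g : K) : T.ty g = 0 ↔ g = 1 := by
  have h1 := allL_spec h _ (List.mem_range.2 (T.lt g))
  rw [← T.ord, beq_iff_eq] at h1
  rw [← orderOf_eq_one_iff, ← Nat.beq_eq, ← h1, Nat.beq_eq]

variable {ν : List ℕ} {A : Subgroup K}

/-- from the tables with multipliers -/
theorem hy_of {L : List (ℕ × ℕ)} (h : SpK.InK K D R L) (hz : okZ D = true) (hk : okK D L ν = true) :
    ∃ T : TD K D, Hy T R ν ∧ Unif T ∧ SpK.Kap T L := by
  obtain ⟨T, h1, h2, h3, h4⟩ := h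
  exact ⟨T, ⟨h1, h2, zero_of hz, den_of_kap h1 h4 hk⟩, h3, h4⟩

omit [Finite K] in
theorem num_ne {t : ℕ} (h : num T A t ≠ 0) : ∃ a ∈ A, T.ty a = t := by
  obtain ⟨⟨s⟩, -⟩ := Nat.card_ne_zero.1 h
  exact ⟨s.1, s.1.2, s.2⟩

theorem num_pos {a : K} (ha : a ∈ A) : 0 < num T A (T.ty a) := by
  have : Nonempty {s : A // T.ty s = T.ty a} := ⟨⟨⟨a, ha⟩, rfl⟩⟩
  exact Nat.card_pos

theorem num_le (A : Subgroup K) (t : ℕ) : num T A t ≤ Nat.card A :=
  Nat.card_le_card_of_injective (fun x => x.1) Subtype.val_injective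

theorem Hy.num0 (H : Hy T R ν) (A : Subgroup K) : num T A 0 = 1 :=
  (Hyp0.mk H.mass H.zero (pos_rowsP H.tab)).num_zero A

/-- many fixed points -/
theorem Hy.le_fx (H : Hy T R ν) (hb : ¬ Good A) {hi f : ℕ} (hh : Nat.card A ≤ hi) (hf : (f - 1) ^ 3 * hi ≤ D.N) {a : K}
    (ha : a ∈ A) : f ≤ fx A a := by
  by_contra h
  refine hb (good_of_le ha (c := f - 1) (by omega) ?_)
  rw [H.mass.1]
  exact (Nat.mul_le_mul_left _ hh).trans hf

/-- **threshold**: a type occurs only in large subgroups -/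
theorem Hy.thr (H : Hy T R ν) (hb : ¬ Good A) {a : K} (ha : a ∈ A) (h0 : 0 < ntd ν 0 (T.ty a)) :
    D.N < (D.N / ntd ν 0 (T.ty a)) ^ 3 * Nat.card A := by
  by_contra h
  refine hb (good_of_le ha ((Nat.le_div_iff_mul_le h0).2 ?_) (H.mass.1.symm ▸ not_lt.1 h :
    (D.N / ntd ν 0 (T.ty a)) ^ 3 * Nat.card A ≤ Nat.card K))
  refine Nat.le_of_mul_le_mul_right ?_ (Nat.card_pos (α := A))
  rw [mul_right_comm]
  exact (H.den A a).trans (Nat.mul_le_mul_left _ (num_le A _))

/-- the fixed points of an element are fixed by its powers -/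
theorem Hy.mono (H : Hy T R ν) (A : Subgroup K) {t : ℕ} (ht : t < D.n) (k : ℕ) :
    ntd ν 0 (D.pwf t k) * num T A t ≤ D.cnt t * num T A (D.pwf t k) := by
  have := Fintype.ofFinite {h : K // T.ty h = t}
  have h0 : 0 < D.N := H.mass.1 ▸ Nat.card_pos
  refine Nat.le_of_mul_le_mul_left ?_ h0
  rw [mul_left_comm, mul_left_comm D.N, ← H.mass.2 t ht, Nat.card_eq_fintype_card, ← smul_eq_mul (Fintype.card _)]
  conv_lhs => rw [← H.mass.1, ← sum_fx, Finset.mul_sum]
  refine Finset.sum_le_card_nsmul _ _ _ fun y _ => ?_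
  have h1 := H.den A (y ^ k)
  rw [T.pow, y.2] at h1
  exact le_trans (by rw [mul_comm]; exact Nat.mul_le_mul_right _ (Nat.mul_le_mul_right _ (fx_le_pow A _ k))) h1

/-! ### vectors -/

/-- `Σ num * F` -/
noncomputable def vf (T : TD K D) (A : Subgroup K) (F : ℕ → ℤ) : ℤ := ∑ t ∈ range D.n, (num T A t : ℤ) * F t

omit [Finite K] in
theorem vf_add (F G : ℕ → ℤ) : vf T A (fun t => F t + G t) = vf T A F + vf T A G := by
  simp only [vf, mul_add, Finset.sum_add_distrib]

theorem vf_const (c : ℤ) : vf T A (fun _ => c) = Nat.card A * c := by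
  rw [vf, ← Finset.sum_mul, card_eq_sum (T := T) A]
  push_cast
  rfl

omit [Finite K] in
theorem vf_one {u : ℕ} (hu : u < D.n) (c : ℤ) : vf T A (fun t => cond (Nat.beq t u) c 0) = num T A u * c := by
  rw [vf, Finset.sum_eq_single u (fun t _ ht => by rw [Bool.eq_false_iff.2 fun h => ht (Nat.eq_of_beq_eq_true h),
    cond_false, mul_zero]) fun h => absurd (mem_range.2 hu) h, Nat.beq_refl, cond_true]

/-- a sparse vector -/
noncomputable def spv (L : List (ℕ × ℤ)) (t : ℕ) : ℤ :=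
  List.rec 0 (fun p _ ih => Int.add (cond (Nat.beq t p.1) p.2 0) ih) L

/-- the presence of the powers of the type `t`: the constant and the sparse part -/
noncomputable def prs (D : Dat) (ν : List ℕ) (f t : ℕ) (L : List (ℕ × ℕ)) : (ℕ → List (ℕ × ℤ) → Bool) → Bool :=
  List.rec (fun κ => κ 0 []) (fun p _ ih κ => frc (D.pwf t p.2) fun u => ih fun c s =>
    frc (Nat.add (Nat.mul p.1 (Nat.mul f (ntd ν 0 u))) c) fun c' => frc (Nat.mul p.1 D.N) fun y =>
      κ c' ((u, Int.ofNat y) :: s)) L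

/-- the inequalities between a type and its powers -/
noncomputable def mns (D : Dat) (ν : List ℕ) (L : List (ℕ × ℕ × ℕ)) (s : List (ℕ × ℤ)) :
    (List (ℕ × ℤ) → Bool) → Bool :=
  List.rec (fun κ => κ s) (fun p _ ih κ => cond (Nat.blt p.2.1 D.n) (frc (D.pwf p.2.1 p.2.2) fun u =>
    cond (Nat.blt u D.n) (ih fun s' => frc (Nat.mul p.1 (D.cnt p.2.1)) fun x => frc (Nat.mul p.1 (ntd ν 0 u)) fun y =>
      κ ((u, Int.ofNat x) :: (p.2.1, Int.neg (Int.ofNat y)) :: s')) false) false) L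

omit [Finite K] in
theorem vf_spv_cons {u : ℕ} (hu : u < D.n) (c : ℤ) (s : List (ℕ × ℤ)) :
    vf T A (spv ((u, c) :: s)) = num T A u * c + vf T A (spv s) := by
  rw [← vf_one hu, ← vf_add]
  rfl

theorem Hy.prs (H : Hy T R ν) {f : ℕ} {a : K} (hf : f ≤ fx A a) (L : List (ℕ × ℕ)) :
    ∀ {κ : ℕ → List (ℕ × ℤ) → Bool}, prs D ν f (T.ty a) L κ = true →
      ∃ c s, κ c s = true ∧ (Nat.card A : ℤ) * c ≤ vf T A (spv s) := by
  induction L with
  | nil => exact fun h => ⟨0, [], h, by simp [vf, spv]⟩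
  | cons p L ih =>
    intro κ h
    have h1 : (frc (D.pwf (T.ty a) p.2) fun u => Sp.prs D ν f (T.ty a) L fun c s =>
      frc (Nat.add (Nat.mul p.1 (Nat.mul f (ntd ν 0 u))) c) fun c' => frc (Nat.mul p.1 D.N) fun y =>
      κ c' ((u, Int.ofNat y) :: s)) = true := h
    rw [frc_eq] at h1
    obtain ⟨c, s, h2, h3⟩ := ih h1
    rw [frc_eq, frc_eq] at h2
    refine ⟨_, _, h2, ?_⟩
    rw [← T.pow, vf_spv_cons (T.lt _)]
    have h4 : f * Nat.card A * ntd ν 0 (T.ty (a ^ p.2)) ≤ _ :=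
      (Nat.mul_le_mul_right _ (Nat.mul_le_mul_right _ (hf.trans (fx_le_pow A a p.2)))).trans (H.den A (a ^ p.2))
    have h5 := Nat.mul_le_mul_left p.1 h4
    simp only [Nat.add_eq, Nat.mul_eq, Int.ofNat_eq_natCast]
    zify at h5
    push_cast
    nlinarith [h5, h3]

theorem Hy.mns (H : Hy T R ν) (s : List (ℕ × ℤ)) (L : List (ℕ × ℕ × ℕ)) :
    ∀ {κ : List (ℕ × ℤ) → Bool}, mns D ν L s κ = true → ∃ s', κ s' = true ∧ vf T A (spv s) ≤ vf T A (spv s') := by
  induction L with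
  | nil => exact fun h => ⟨s, h, le_rfl⟩
  | cons p L ih =>
    intro κ h
    have h1 : cond (Nat.blt p.2.1 D.n) (frc (D.pwf p.2.1 p.2.2) fun u =>
      cond (Nat.blt u D.n) (Sp.mns D ν L s fun s' => frc (Nat.mul p.1 (D.cnt p.2.1)) fun x =>
        frc (Nat.mul p.1 (ntd ν 0 u)) fun y =>
      κ ((u, Int.ofNat x) :: (p.2.1, Int.neg (Int.ofNat y)) :: s')) false) false = true := h
    obtain ⟨h2, h3⟩ := SM.Sp.cond_ff h1
    rw [frc_eq] at h3
    obtain ⟨h4, h5⟩ := SM.Sp.cond_ff h3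
    rw [Nat.blt_eq] at h2 h4
    obtain ⟨s', h6, h7⟩ := ih h5
    rw [frc_eq, frc_eq] at h6
    refine ⟨_, h6, ?_⟩
    rw [vf_spv_cons h4, vf_spv_cons h2]
    have h8 := Nat.mul_le_mul_left p.1 (H.mono A h2 p.2.2)
    have h9 : ∀ z : ℤ, Int.neg z = -z := fun _ => rfl
    simp only [Nat.mul_eq, Int.ofNat_eq_natCast, h9]
    zify at h8
    push_cast
    nlinarith [h8, h7]

/-- the types of the elements of `A` lie in `S` -/
def Sup (T : TD K D) (A : Subgroup K) (S : List ℕ) : Prop := ∀ a ∈ A, T.ty a = 0 ∨ T.ty a ∈ S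

/-- the vectors have non-negative sums on `A` -/
def Pos (T : TD K D) (A : Subgroup K) (W : List (List ℤ)) : Prop := ∀ w ∈ W, 0 ≤ val T A w

omit [Finite K] in
theorem Pos.cmb {W : List (List ℤ)} (h : Pos T A W) (c : List (ℕ × ℕ)) : 0 ≤ vf T A (nth (cmb W c)) := by
  induction c with
  | nil => exact (Finset.sum_eq_zero fun t _ => mul_zero _).ge
  | cons p c ih =>
    have h1 : 0 ≤ vf T A (nth (ntd W [] p.2)) := by
      rcases ntd_mem W [] p.2 with h2 | h2
      · rw [h2]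
        exact (Finset.sum_eq_zero fun t _ => mul_zero _).ge
      · exact h _ h2
    have h2 : ∀ t, nth (SB.SporL.cmb W (p :: c)) t = p.1 * nth (ntd W [] p.2) t + nth (SB.SporL.cmb W c) t :=
      fun t => nth_comb_cons W _ _ t
    simp only [vf] at h1 ih ⊢
    simp only [h2, mul_add, Finset.sum_add_distrib, mul_left_comm _ (p.1 : ℤ), ← Finset.mul_sum]
    exact add_nonneg (mul_nonneg (Int.natCast_nonneg _) h1) ih

theorem Hy.pos (H : Hy T R ν) {X : List (List ℤ)} (hX : Pos T A X) : Pos T A (X ++ rowsP R) := fun w hw =>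
  (List.mem_append.1 hw).elim (hX w) fun h => pos_rowsP H.tab w h A

/-- steps -/
inductive St : Type
  | pw (t k : ℕ) : St
  | fk (t : ℕ) (c : List (ℕ × ℕ)) (x y : ℕ) (p : List (ℕ × ℕ)) (m : List (ℕ × ℕ × ℕ)) : St

/-- membership -/
noncomputable def mem (S : List ℕ) (t : ℕ) : Bool := List.rec false (fun a _ ih => cond (Nat.beq a t) true ih) S

theorem mem_of {S : List ℕ} {t : ℕ} (h : t ∈ S) : mem S t = true := by
  induction S with
  | nil => cases h
  | cons a S ih =>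
    show cond (Nat.beq a t) true (mem S t) = true
    rcases List.mem_cons.1 h with rfl | h
    · rw [Nat.beq_refl, cond_true]
    · rw [ih h, Bool.cond_self]

/-- a filter which is evaluated -/
noncomputable def flt (p : ℕ → Bool) (S : List ℕ) : (List ℕ → Bool) → Bool :=
  List.rec (fun κ => κ []) (fun a _ ih κ => frc a fun b => cond (p b) (ih fun l => κ (b :: l)) (ih κ)) S

theorem flt_eq (p : ℕ → Bool) (S : List ℕ) (κ : List ℕ → Bool) : flt p S κ = κ (S.filter p) := by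
  induction S generalizing κ with
  | nil => rfl
  | cons a S ih =>
    show (frc a fun b => cond (p b) (flt p S fun l => κ (b :: l)) (flt p S κ)) = _
    rw [frc_eq, List.filter_cons]
    cases p a <;> simp [ih]

/-- the certificate of Farkas: the type `t` does not occur -/
noncomputable def far (D : Dat) (ν : List ℕ) (W : List (List ℤ)) (lo hi f : ℕ) (S : List ℕ) (t : ℕ) (c : List (ℕ × ℕ))
    (x y : ℕ) (p : List (ℕ × ℕ)) (m : List (ℕ × ℕ × ℕ)) : Bool :=
  frcLZ (cmb W c) fun Ψ => prs D ν f t p fun k s => mns D ν m s fun s' =>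
    frcZ (Int.subNatNat y (Nat.add x k)) fun α =>
      cond (decide (nth Ψ 0 + spv s' 0 + α + Int.subNatNat (Nat.mul x hi) (Nat.mul y lo) < 0))
        (allL (fun u => decide (nth Ψ u + spv s' u + α ≤ 0)) S) false

theorem Hy.far (H : Hy T R ν) {W : List (List ℤ)} (hW : Pos T A W) {lo hi f : ℕ} (h1 : lo ≤ Nat.card A)
    (h2 : Nat.card A ≤ hi) {S : List ℕ} (hS : Sup T A S) {a : K} (hf : f ≤ fx A a) {c : List (ℕ × ℕ)} {x y : ℕ}
    {p : List (ℕ × ℕ)} {m : List (ℕ × ℕ × ℕ)} (h : far D ν W lo hi f S (T.ty a) c x y p m = true) : False := by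
  rw [Sp.far, frcLZ_eq] at h
  obtain ⟨k, s, h3, h4⟩ := H.prs hf p h
  obtain ⟨s', h5, h6⟩ := H.mns (A := A) s m h3
  rw [frcZ_eq] at h5
  obtain ⟨h7, h8⟩ := SM.Sp.cond_ff h5
  rw [decide_eq_true_eq] at h7
  simp only [Int.subNatNat_eq_coe, Nat.add_eq, Nat.mul_eq] at h7 h8
  have h9 := hW.cmb c
  set F : ℕ → ℤ := fun u => nth (cmb W c) u + spv s' u + ((y : ℤ) - ((x + k : ℕ) : ℤ)) with hF
  have e : vf T A F = vf T A (nth (cmb W c)) + vf T A (spv s') + Nat.card A * ((y : ℤ) - ((x + k : ℕ) : ℤ)) := by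
    rw [hF, vf_add, vf_add, vf_const]
  have hn : 0 < D.n := Nat.lt_of_le_of_lt (Nat.zero_le _) (T.lt 1)
  have e2 : vf T A F ≤ F 0 := by
    rw [vf, ← Finset.add_sum_erase _ _ (mem_range.2 hn), H.num0, Nat.cast_one, one_mul, add_le_iff_nonpos_right]
    refine Finset.sum_nonpos fun u hu => ?_
    by_cases h0 : num T A u = 0
    · rw [h0, Nat.cast_zero, zero_mul]
    · obtain ⟨b, hb, rfl⟩ := num_ne h0
      refine mul_nonpos_of_nonneg_of_nonpos (Int.natCast_nonneg _) ?_
      exact of_decide_eq_true (allL_spec h8 _ ((hS b hb).resolve_left (Finset.mem_erase.1 hu).1))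
  have h10 := Nat.mul_le_mul_left x h2
  have h11 := Nat.mul_le_mul_left y h1
  have e3 : F 0 = nth (cmb W c) 0 + spv s' 0 + ((y : ℤ) - ((x + k : ℕ) : ℤ)) := rfl
  zify at h10 h11
  push_cast at e e3 h7
  nlinarith [e, e2, e3, h4, h6, h7, h9, h10, h11]

/-- the type of a step -/
def St.ty : St → ℕ
  | .pw t _ => t
  | .fk t _ _ _ _ _ => t

/-- the check of a step -/
noncomputable def stp (D : Dat) (ν : List ℕ) (W : List (List ℤ)) (lo hi f : ℕ) (S : List ℕ) (s : St) : Bool :=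
  St.rec (fun t k => frc (D.pwf t k) fun u => cond (Nat.beq u 0) false (!mem S u))
    (fun t c x y p m => far D ν W lo hi f S t c x y p m) s

/-- the steps for one range -/
noncomputable def run (D : Dat) (ν : List ℕ) (W : List (List ℤ)) (lo hi f : ℕ) (κ : List ℕ → Bool) (L : List St) :
    List ℕ → Bool :=
  List.rec κ (fun s _ ih S => cond (stp D ν W lo hi f S s)
    (frc s.ty fun t => cond (Nat.beq t 0) true (flt (fun u => !Nat.beq u t) S ih)) false) L

theorem Hy.stp (H : Hy T R ν) {W : List (List ℤ)} (hW : Pos T A W) {lo hi f : ℕ} (h1 : lo ≤ Nat.card A)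
    (h2 : Nat.card A ≤ hi) (hf : ∀ a ∈ A, f ≤ fx A a) {S : List ℕ} (hS : Sup T A S) {s : St}
    (h : stp D ν W lo hi f S s = true) {a : K} (ha : a ∈ A) : T.ty a ≠ s.ty := by
  intro e
  cases s with
  | pw t k =>
    have h3 : (frc (D.pwf t k) fun u => cond (Nat.beq u 0) false (!mem S u)) = true := h
    obtain rfl : T.ty a = t := e
    rw [frc_eq, ← T.pow] at h3
    rcases hS _ (A.pow_mem ha k) with h4 | h4
    · rw [h4] at h3
      cases h3
    · rw [mem_of h4] at h3
      generalize Nat.beq (T.ty (a ^ k)) 0 = z at h3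
      cases z <;> cases h3
  | fk t c x y p m =>
    obtain rfl : T.ty a = t := e
    exact H.far hW h1 h2 hS (hf a ha) h

theorem Hy.run (H : Hy T R ν) {W : List (List ℤ)} (hW : Pos T A W) {lo hi f : ℕ} (h1 : lo ≤ Nat.card A)
    (h2 : Nat.card A ≤ hi) (hf : ∀ a ∈ A, f ≤ fx A a) {κ : List ℕ → Bool} (L : List St) :
    ∀ {S : List ℕ}, Sup T A S → run D ν W lo hi f κ L S = true → ∃ S', Sup T A S' ∧ κ S' = true := by
  induction L with
  | nil => exact fun hS h => ⟨_, hS, h⟩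
  | cons s L ih =>
    intro S hS h
    have h3 : cond (Sp.stp D ν W lo hi f S s) (frc s.ty fun t => cond (Nat.beq t 0) true
      (flt (fun u => !Nat.beq u t) S (Sp.run D ν W lo hi f κ L))) false = true := h
    obtain ⟨h4, h5⟩ := SM.Sp.cond_ff h3
    have h6 := fun a (ha : a ∈ A) => H.stp hW h1 h2 hf hS h4 ha
    rw [frc_eq] at h5
    cases h7 : Nat.beq s.ty 0 with
    | true => exact absurd (((H.zero 1).2 rfl).trans (Nat.eq_of_beq_eq_true h7).symm) (h6 1 A.one_mem)
    | false =>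
      rw [h7, cond_false, flt_eq] at h5
      refine ih (fun a ha => (hS a ha).imp id fun h8 => List.mem_filter.2 ⟨h8, ?_⟩) h5
      rw [Bool.eq_false_iff.2 fun h9 => h6 a ha (Nat.eq_of_beq_eq_true h9)]
      rfl

/-- the result: the type, a lower and an upper bound for `|A|` -/
abbrev Out : Type := List (ℕ × ℕ × ℕ)

/-- all types of `S` have entries -/
noncomputable def fin (O : Out) (U lo hi : ℕ) (S : List ℕ) : Bool :=
  cond (Nat.ble hi U) (allL (fun t => O.any fun e => cond (Nat.beq e.1 t)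
    (cond (Nat.ble e.2.1 lo) (Nat.ble hi e.2.2) false) false) S) false

/-- the ranges `(lo, f, steps)` from `hi` down to `b + 1` -/
noncomputable def rngs (D : Dat) (ν : List ℕ) (W : List (List ℤ)) (S : List ℕ) (O : Out) (U b : ℕ)
    (L : List (ℕ × ℕ × List St)) : ℕ → Bool :=
  List.rec (fun hi => Nat.ble hi b) (fun r _ ih hi =>
    cond (Nat.ble (Nat.mul (Nat.pow (Nat.sub r.2.1 1) 3) hi) D.N)
      (cond (flt (fun t => Nat.ble (Nat.mul r.2.1 (ntd ν 0 t)) D.N) S (run D ν W r.1 hi r.2.1 (fin O U r.1 hi) r.2.2))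
        (frc (Nat.sub r.1 1) ih) false) false) L

/-- evaluate rows -/
noncomputable def frcW (L : List (List ℤ)) : (List (List ℤ) → Bool) → Bool :=
  List.rec (fun κ => κ []) (fun r _ ih κ => frcLZ r fun y => ih fun L' => κ (y :: L')) L

theorem frcW_eq (L : List (List ℤ)) (κ : List (List ℤ) → Bool) : frcW L κ = κ L := by
  induction L generalizing κ with
  | nil => rfl
  | cons r L ih =>
    show (frcLZ r fun y => frcW L fun L' => κ (y :: L')) = _
    rw [frcLZ_eq, ih]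

/-- **the check**: extra vectors `X` (indices `0, 1, ..`, the rows of the table follow), types `S`, orders in
`(b, hi]` -/
noncomputable def chk (D : Dat) (R : Rows) (ν : List ℕ) (X : List (List ℤ)) (S : List ℕ) (O : Out) (U b hi : ℕ)
    (L : List (ℕ × ℕ × List St)) : Bool :=
  frcL ν fun ν' => frcW (X ++ rowsP R) fun W => rngs D ν' W S O U b L hi

/-- the conclusion -/
def Res (T : TD K D) (A : Subgroup K) (O : Out) (U : ℕ) : Prop :=
  Nat.card A ≤ U ∧ ∀ a ∈ A, T.ty a = 0 ∨ ∃ e ∈ O, T.ty a = e.1 ∧ e.2.1 ≤ Nat.card A ∧ Nat.card A ≤ e.2.2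

theorem Hy.rngs (H : Hy T R ν) (hb : ¬ Good A) {W : List (List ℤ)} (hW : Pos T A W) {S : List ℕ} (hS : Sup T A S)
    {O : Out} {U b : ℕ} (h0 : b < Nat.card A) (L : List (ℕ × ℕ × List St)) :
    ∀ {hi : ℕ}, Nat.card A ≤ hi → rngs D ν W S O U b L hi = true → Res T A O U := by
  induction L with
  | nil => exact fun h1 h => absurd (Nat.le_of_ble_eq_true h) (by omega)
  | cons r L ih =>
    intro hi h1 h
    have h2 : cond (Nat.ble (Nat.mul (Nat.pow (Nat.sub r.2.1 1) 3) hi) D.N)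
      (cond (flt (fun t => Nat.ble (Nat.mul r.2.1 (ntd ν 0 t)) D.N) S (Sp.run D ν W r.1 hi r.2.1 (fin O U r.1 hi) r.2.2))
        (frc (Nat.sub r.1 1) (Sp.rngs D ν W S O U b L)) false) false = true := h
    obtain ⟨h3, h4⟩ := SM.Sp.cond_ff h2
    obtain ⟨h5, h6⟩ := SM.Sp.cond_ff h4
    rcases Nat.lt_or_ge (Nat.card A) r.1 with h7 | h7
    · rw [frc_eq] at h6
      exact ih (Nat.le_sub_one_of_lt h7) h6
    have hf : ∀ a ∈ A, r.2.1 ≤ fx A a := fun a ha => H.le_fx hb h1 (Nat.le_of_ble_eq_true h3) ha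
    rw [flt_eq] at h5
    obtain ⟨S', h8, h9⟩ := H.run hW h7 h1 hf r.2.2 (fun a ha => (hS a ha).imp id fun h8 => List.mem_filter.2 ⟨h8, by
      refine Nat.ble_eq_true_of_le (Nat.le_of_mul_le_mul_right ?_ (Nat.card_pos (α := A)))
      rw [Nat.mul_eq, mul_right_comm]
      exact ((Nat.mul_le_mul_right _ (Nat.mul_le_mul_right _ (hf a ha))).trans (H.den A a)).trans
        (Nat.mul_le_mul_left _ (num_le A _))⟩) h5
    obtain ⟨h10, h11⟩ := SM.Sp.cond_ff h9
    refine ⟨h1.trans (Nat.le_of_ble_eq_true h10), fun a ha => (h8 a ha).imp id fun h12 => ?_⟩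
    obtain ⟨e, h13, h14⟩ := List.any_eq_true.1 (allL_spec h11 _ h12)
    obtain ⟨h15, h16⟩ := SM.Sp.cond_ff h14
    obtain ⟨h17, h18⟩ := SM.Sp.cond_ff h16
    exact ⟨e, h13, (Nat.eq_of_beq_eq_true h15).symm, (Nat.le_of_ble_eq_true h17).trans h7,
      h1.trans (Nat.le_of_ble_eq_true h18)⟩

/-- **the engine** -/
theorem Hy.res (H : Hy T R ν) (hb : ¬ Good A) {X : List (List ℤ)} (hX : Pos T A X) {S : List ℕ} (hS : Sup T A S)
    {O : Out} {U b hi : ℕ} (h0 : b < Nat.card A) (h1 : Nat.card A ≤ hi) {L : List (ℕ × ℕ × List St)}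
    (h : chk D R ν X S O U b hi L = true) : Res T A O U := by
  rw [chk, frcL_eq, frcW_eq] at h
  exact H.rngs hb (H.pos hX) hS h0 L h1 h

/-- no subgroup at all -/
theorem Hy.dead (H : Hy T R ν) (hb : ¬ Good A) {X : List (List ℤ)} (hX : Pos T A X) {S : List ℕ} (hS : Sup T A S)
    {b hi : ℕ} (h0 : b < Nat.card A) (h1 : Nat.card A ≤ hi) {L : List (ℕ × ℕ × List St)}
    (h : chk D R ν X S [] 0 b hi L = true) : False :=
  absurd (H.res hb hX hS h0 h1 h).1 (by omega)

omit [Finite K] in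
theorem sup_all (A : Subgroup K) : Sup T A (List.range' 1 (D.n - 1)) := fun a _ => by
  have := T.lt a
  rw [List.mem_range'_1]
  omega

omit [Finite K] in
theorem pos_nil (A : Subgroup K) : Pos T A [] := fun _ h => absurd h List.not_mem_nil

/-- the start: a proper subgroup has index above the least degree -/
theorem Hy.card_le (H : Hy T R ν) {md : ℕ} (h : okMd R md = true) (hA : A ≠ ⊤) : Nat.card A ≤ D.N / (md + 1) := by
  rw [Nat.le_div_iff_mul_le md.succ_pos, ← H.mass.1, ← A.index_mul_card, mul_comm]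
  exact Nat.mul_le_mul_right _ (md_lt H.tab h hA)

omit [Finite K] in
theorem Res.sup {O : Out} {U : ℕ} (h : Res T A O U) : Sup T A (O.map Prod.fst) := fun a ha =>
  (h.2 a ha).imp id fun ⟨e, h1, h2, _⟩ => List.mem_map.2 ⟨e, h1, h2.symm⟩

omit [Finite K] in
theorem Sup.mono {S S' : List ℕ} (h : Sup T A S) (h' : S.all (fun t => S'.contains t) = true) : Sup T A S' :=
  fun a ha => (h a ha).imp id fun h1 => by simpa using List.all_eq_true.1 h' _ h1

/-- differences `(χ a + χ b) - (χ a - χ c)` of rows -/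
noncomputable def subL (R : Rows) (P : List (ℕ × ℕ)) : List (List ℤ) :=
  mapL (fun p => addL (ntd R.rel ([], []) p.1).2 ((ntd R.rel ([], []) p.2).2.map (Int.mul (-1)))) P

/-- the shape of the constituents -/
noncomputable def okSub (R : Rows) (P : List (ℕ × ℕ)) : Bool :=
  okIdx R && allL (fun p => match (ntd R.rel ([], []) p.1).1, (ntd R.rel ([], []) p.2).1 with
    | [a, b], [c, d] => decide (a = c) && decide (0 ≤ b.2) && decide (d.2 ≤ 0)
    | _, _ => false) P

theorem Hy.pos_subL (H : Hy T R ν) (A : Subgroup K) {P : List (ℕ × ℕ)} (h : okSub R P = true) : Pos T A (subL R P) := by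
  intro w hw
  rw [subL, mapL_eq] at hw
  obtain ⟨p, hp, rfl⟩ := List.mem_map.1 hw
  rw [okSub, Bool.and_eq_true] at h
  have h1 := allL_spec h.2 p hp
  have := Fintype.ofFinite A
  obtain ⟨χ, hE, hR⟩ := H.tab
  obtain ⟨m, hm, -⟩ := SM.Sp.exists_mults hE A
  have h2 := (SM.Sp.val_mult hR h.1 hm p.1).2
  have h3 := (SM.Sp.val_mult hR h.1 hm p.2).2
  have h4 : val T A (addL (ntd R.rel ([], []) p.1).2 ((ntd R.rel ([], []) p.2).2.map (Int.mul (-1)))) =
      val T A (ntd R.rel ([], []) p.1).2 - val T A (ntd R.rel ([], []) p.2).2 := by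
    simp only [SM.Sp.val, nth_addL, nth_map_mul, ← Finset.sum_sub_distrib]
    exact Finset.sum_congr rfl fun t _ => by ring
  rw [h4, h2, h3, ← mul_sub]
  refine mul_nonneg (Int.natCast_nonneg _) ?_
  split at h1
  · rename_i a b c d e1 e2
    simp only [Bool.and_eq_true, decide_eq_true_eq] at h1
    obtain ⟨⟨rfl, h5⟩, h6⟩ := h1
    rw [e1, e2]
    simp only [List.map_cons, List.map_nil, List.sum_cons, List.sum_nil]
    nlinarith [mul_nonneg h5 (Int.natCast_nonneg (m b.1)), mul_nonneg (neg_nonneg.2 h6) (Int.natCast_nonneg (m d.1))]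
  · cases h1

end Cfsg.Agent.N2.Sp
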